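import Cfsg.Agent.Lib.AltModule.P5.M2.Def

/-!
Checks for piece 1 of the certificate.
-/

namespace Cfsg.Agent.AltMod.P5.M2

theorem fix1_1 : mdl.fixOk 5 ((subs.getD 16 ([], [])).1) v1 k1 0x1000000030002000000000000000200020001000100040001000300010001000300000000000000020004000200030001000100040001000100020001000100000004000400040003000400010000000000000001000000040004000300010000000200000002000200000000000300040004000400000003000000040003 = true := by
  decide +kernel

theorem fix1_2 : mdl.fixOk 5 ((subs.getD 16 ([], [])).2) v1 k1 0x4000000040004000200000003000400040004000400000003000300000002000100000004000300040000000100030002000200020001000200020000000300000001000100030003000100010001000000000000000100020003000000030000000100000003000100040004000100040002000300010003000000010001 = true := by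
  decide +kernel

theorem spin1_0 : mdl.spinOk 5 v1 e1 0 50 = true := by decide +kernel

theorem spin1_1 : mdl.spinOk 5 v1 e1 50 32 = true := by decide +kernel

theorem spin1_len : e1.length = 82 := by decide +kernel

theorem spin1 : ∀ i < (e1.length + 49) / 50,
    mdl.spinOk 5 v1 e1 (50 * i) (min 50 (e1.length - 50 * i)) = true := by
  rw [spin1_len]
  intro i hi
  interval_cases i
  · exact spin1_0
  · exact spin1_1

end Cfsg.Agent.AltMod.P5.M2
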